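import Mathlib

/-! Rank one data used for statement S3047. -/

set_option autoImplicit false

namespace R47

/-- `K` has a split rank one structure: `U` a Sylow `p`-subgroup of `K`, `B` its normaliser,
`t` a torus element of order dividing `p - 1` modulo `U`, `w` a Weyl element. -/
structure RD {X : Type*} [Group X] (p : ℕ) (K U B : Subgroup X) (t w : X) : Prop where
  pg : IsPGroup p U
  ix : ¬ p ∣ U.relIndex K
  UB : U ≤ B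
  BK : B ≤ K
  wK : w ∈ K
  nrm : ∀ b ∈ B, ∀ u ∈ U, b * u * b⁻¹ ∈ U
  cyc : ∃ h ∈ B, ∀ b ∈ B, ∃ k : ℕ, (h ^ k)⁻¹ * b ∈ U
  tB : t ∈ B
  tp : t ^ (p - 1) ∈ U
  wt : w⁻¹ * t * w ∈ B
  wB : w ∉ B
  br : ∀ g ∈ K, g ∉ B → ∃ u ∈ U, (u * w)⁻¹ * g ∈ B
  un : ∀ u ∈ U, w⁻¹ * u * w ∈ B → u = 1
  ct : ∀ u ∈ U, t * u = u * t → u = 1
  ne : ∃ u ∈ U, u ≠ 1

end R47
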