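import Mathlib
import Cfsg.Agent.Lib.R47.Defs

/-! The abstract part of S3047: an element of a Sylow subgroup centralising its normaliser is central. -/

set_option autoImplicit false

namespace R47

theorem nt {Q : Type*} [Group Q] {p j k : ℕ} (hp : p.Prime) (y : Q) (h1 : y ^ (p - 1) = 1)
    (h2 : y ^ (j ^ (p ^ k)) = y ^ 1) : y ^ j = y := by
  have p1 : 0 < p - 1 := by have := hp.two_le; omega
  have hm : orderOf y ≤ p - 1 := Nat.le_of_dvd p1 (orderOf_dvd_of_pow_eq_one h1)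
  have m0 : 0 < orderOf y := (isOfFinOrder_iff_pow_eq_one.2 ⟨_, p1, h1⟩).orderOf_pos
  haveI : NeZero (orderOf y) := ⟨m0.ne'⟩
  rw [pow_eq_pow_iff_modEq, ← ZMod.natCast_eq_natCast_iff] at h2
  push_cast at h2
  obtain ⟨i, -, hi⟩ := (Nat.dvd_prime_pow hp).1 (orderOf_dvd_of_pow_eq_one h2)
  have hle : orderOf (j : ZMod (orderOf y)) ≤ orderOf y := by
    simpa using (orderOf_le_card_univ (x := (j : ZMod (orderOf y))))
  have i0 : i = 0 := by
    by_contra h0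
    have := Nat.le_self_pow h0 p
    omega
  rw [i0, pow_zero, orderOf_eq_one_iff] at hi
  have : y ^ j = y ^ 1 := by
    rw [pow_eq_pow_iff_modEq, ← ZMod.natCast_eq_natCast_iff]
    simpa using hi
  simpa using this

theorem zp {X : Type*} [Group X] {p k : ℕ} {x : X} (hx : x ^ p ^ k = 1) :
    IsPGroup p (Subgroup.zpowers x) := by
  rintro ⟨_, n, rfl⟩
  refine ⟨k, Subtype.ext ?_⟩
  change (x ^ n) ^ p ^ k = 1
  rw [← zpow_natCast, ← zpow_mul, mul_comm, zpow_mul, zpow_natCast, hx, one_zpow]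

variable {X : Type*} [Group X] [Finite X] {p : ℕ} [Fact p.Prime] {K U B : Subgroup X} {t w : X}

namespace RD

variable (h : RD p K U B t w)
include h

theorem memB {g : X} (hg : g ∈ K) (hn : ∀ u ∈ U, g⁻¹ * u * g ∈ U) : g ∈ B := by
  by_contra h0
  obtain ⟨u, hu, hb⟩ := h.br g hg h0
  obtain ⟨v, hv, v1⟩ := h.ne
  have := h.nrm _ hb _ (hn _ (mul_mem (mul_mem hu hv) (inv_mem hu)))
  exact v1 (h.un v hv (h.UB (by convert this using 1; group)))

theorem maxp {R : Subgroup X} (hR : IsPGroup p R) (h1 : U ≤ R) (h2 : R ≤ K) : R ≤ U := by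
  obtain ⟨n, hn⟩ := hR.index (U.subgroupOf R)
  have e := Subgroup.relIndex_mul_relIndex U R K h1 h2
  rw [← Subgroup.relIndex_eq_one]
  change U.relIndex R = _ at hn
  rcases n with _ | n
  · simpa using hn
  · exact absurd (by rw [← e, hn, pow_succ']; exact (dvd_mul_right _ _).mul_right _) h.ix

theorem BN : B ≤ Subgroup.normalizer (U : Set X) := fun b hb =>
  Subgroup.mem_normalizer_fintype (h.nrm b hb)

theorem pel {x : X} (hx : x ∈ B) {k : ℕ} (hk : x ^ p ^ k = 1) : x ∈ U := by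
  have h1 : Subgroup.zpowers x ≤ B := (Subgroup.zpowers_le).2 hx
  exact h.maxp ((zp hk).to_sup_of_normal_right' h.pg (h1.trans h.BN)) le_sup_right
    (sup_le (h1.trans h.BK) (h.UB.trans h.BK))
    (Subgroup.mem_sup_left (Subgroup.mem_zpowers x))

theorem opp {u : X} (hu : u ∈ U) (hb : w * u * w⁻¹ ∈ B) : u = 1 := by
  obtain ⟨k, hk⟩ := h.pg ⟨u, hu⟩
  have hk' : u ^ p ^ k = 1 := congrArg Subtype.val hk
  have h1 := h.un _ (h.pel hb (k := k) (by rw [conj_pow, hk']; group))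
    (by convert h.UB hu using 1; group)
  rw [show u = w⁻¹ * (w * u * w⁻¹) * w by group, h1]; group

variable [hK : K.Normal] {T : Subgroup X} (hT : IsPGroup p T) (hUT : U ≤ T)
include hT hUT

theorem cjU {τ u : X} (hτ : τ ∈ T) (hu : u ∈ U) : τ * u * τ⁻¹ ∈ U :=
  h.maxp (R := T ⊓ K) hT.to_inf_left (le_inf hUT (h.UB.trans h.BK)) inf_le_right
    (Subgroup.mem_inf.2
      ⟨mul_mem (mul_mem hτ (hUT hu)) (inv_mem hτ), hK.conj_mem _ (h.BK (h.UB hu)) _⟩)

theorem cjB {τ b : X} (hτ : τ ∈ T) (hb : b ∈ B) : τ * b * τ⁻¹ ∈ B := by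
  refine h.memB (hK.conj_mem _ (h.BK hb) _) fun u hu => ?_
  have := h.cjU hT hUT hτ (h.nrm _ (inv_mem hb) _ (h.cjU hT hUT (inv_mem hτ) hu))
  convert this using 1; group

theorem tN : t ∈ Subgroup.normalizer (T : Set X) := by
  haveI : (U.subgroupOf B).Normal := ⟨fun u hu b => h.nrm b b.2 u hu⟩
  have main : ∀ τ ∈ T, (τ * t * τ⁻¹)⁻¹ * t ∈ U := by
    intro τ hτ
    let π := QuotientGroup.mk' (U.subgroupOf B)
    have hπ : ∀ a b : B, π a = π b ↔ (a : X)⁻¹ * b ∈ U := fun a b => QuotientGroup.eq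
    let c : B →* B := ((MulAut.conj τ).toMonoidHom.comp B.subtype).codRestrict B
      fun b => h.cjB hT hUT hτ b.2
    have hc : ∀ b : B, (c b : X) = τ * b * τ⁻¹ := fun b => rfl
    obtain ⟨g, hg, hcy⟩ := h.cyc
    obtain ⟨j, hj⟩ := hcy _ (h.cjB hT hUT hτ hg)
    have key : ∀ b : B, π (c b) = π b ^ j := by
      intro b
      obtain ⟨k, hk⟩ := hcy b b.2
      have e1 : π (⟨g, hg⟩ ^ k) = π b := (hπ _ _).2 hk
      have e2 : π (c (⟨g, hg⟩ ^ k)) = π (c b) := (hπ _ _).2 (by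
        have := h.cjU hT hUT hτ hk
        rw [hc, hc]
        convert this using 1
        simp only [SubmonoidClass.mk_pow]; group)
      have e3 : π (⟨g, hg⟩ ^ j) = π (c ⟨g, hg⟩) := (hπ _ _).2 hj
      rw [← e2, ← e1, map_pow, map_pow, ← e3, map_pow, map_pow, ← pow_mul, ← pow_mul, mul_comm]
    have it : ∀ n : ℕ, ∃ b : B, (b : X) = τ ^ n * t * (τ ^ n)⁻¹ ∧ π b = π ⟨t, h.tB⟩ ^ j ^ n := by
      intro n
      induction n with
      | zero => exact ⟨⟨t, h.tB⟩, by simp, by simp⟩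
      | succ n ih =>
        obtain ⟨b, h1, h2⟩ := ih
        exact ⟨c b, by rw [hc, h1, pow_succ']; group, by rw [key, h2, ← pow_mul, pow_succ]⟩
    obtain ⟨k, hk⟩ := hT ⟨τ, hτ⟩
    have hk' : τ ^ p ^ k = 1 := congrArg Subtype.val hk
    obtain ⟨b, h1, h2⟩ := it (p ^ k)
    obtain rfl : b = ⟨t, h.tB⟩ := Subtype.ext (by rw [h1, hk']; simp)
    have h3 := nt (j := j) (k := k) (Fact.out : p.Prime) (π ⟨t, h.tB⟩) (by
      rw [← map_pow]; exact (QuotientGroup.eq_one_iff _).2 h.tp) (by rw [← h2, pow_one])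
    rw [← key] at h3
    exact (hπ _ _).1 h3
  refine Subgroup.mem_normalizer_fintype fun τ hτ => ?_
  have h1 := h.nrm _ h.tB _ (main τ⁻¹ (inv_mem hτ))
  have h4 := mul_mem (show τ ∈ T from hτ) (inv_mem (hUT h1))
  change t * τ * t⁻¹ ∈ T
  convert h4 using 1
  group

theorem core {z : X} (hzT : z ∈ T) (hz : ∀ n ∈ Subgroup.normalizer (T : Set X), z * n = n * z)
    (hmin : ∀ H1 H2 : Subgroup X, T ≤ H1 → T ≤ H2 → H1 ⊔ H2 = ⊤ → H1 = ⊤ ∨ H2 = ⊤) (x : X) :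
    x * z = z * x := by
  have zT : ∀ u ∈ T, z * u * z⁻¹ = u := fun u hu => by
    rw [hz u (Subgroup.le_normalizer hu)]; group
  have zt : z * t * z⁻¹ = t := by rw [hz t (h.tN hT hUT)]; group
  have hb : w⁻¹ * (z * w * z⁻¹) ∈ B := by
    obtain ⟨u, hu, hb⟩ := h.br _ (hK.conj_mem _ h.wK z) (fun h0 => h.wB (by
      convert h.cjB hT hUT (inv_mem hzT) h0 using 1; group))
    have h1 : (z * w * z⁻¹)⁻¹ * t * (z * w * z⁻¹) ∈ B := by
      convert h.cjB hT hUT hzT h.wt using 1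
      conv_lhs => rw [← zt]
      group
    have h2 := h.un _ (mul_mem (inv_mem hu) (h.nrm _ h.tB _ hu)) (by
      convert mul_mem (mul_mem (mul_mem hb h1) (inv_mem hb)) (inv_mem h.wt) using 1; group)
    have h3 := h.ct u hu (by
      rw [show t * u = u * (u⁻¹ * (t * u * t⁻¹)) * t by group, h2, mul_one])
    simpa [h3] using hb
  have hall : ∀ g ∈ K, g⁻¹ * (z * g * z⁻¹) ∈ B := by
    intro g hg
    by_cases h0 : g ∈ B
    · exact mul_mem (inv_mem h0) (h.cjB hT hUT hzT h0)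
    obtain ⟨u, hu, h1⟩ := h.br g hg h0
    obtain ⟨b, hb1, rfl⟩ : ∃ b ∈ B, g = u * w * b := ⟨_, h1, by group⟩
    rw [show (u * w * b)⁻¹ * (z * (u * w * b) * z⁻¹) =
      b⁻¹ * (w⁻¹ * (u⁻¹ * (z * u * z⁻¹)) * (z * w * z⁻¹)) * (z * b * z⁻¹) by group,
      zT u (hUT hu), inv_mul_cancel, mul_one]
    exact mul_mem (mul_mem (inv_mem hb1) hb) (h.cjB hT hUT hzT hb1)
  obtain ⟨u, hu, u1⟩ := h.ne
  have hv : w * u * w⁻¹ ∈ K := mul_mem (mul_mem h.wK (h.BK (h.UB hu))) (inv_mem h.wK)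
  have zv : w * u * w⁻¹ ∈ Subgroup.centralizer {z} := by
    have e : (w * u * w⁻¹)⁻¹ * (z * (w * u * w⁻¹) * z⁻¹) = w * (u⁻¹ *
        ((w⁻¹ * (z * w * z⁻¹)) * (z * u * z⁻¹) * (w⁻¹ * (z * w * z⁻¹))⁻¹)) * w⁻¹ := by group
    have h1 := hall _ hv
    rw [zT u (hUT hu)] at e
    rw [e] at h1
    rw [h.opp (mul_mem (inv_mem hu) (h.nrm _ hb _ hu)) h1] at e
    rw [Subgroup.mem_centralizer_singleton_iff]
    rw [show z * (w * u * w⁻¹) = (w * u * w⁻¹) *
      ((w * u * w⁻¹)⁻¹ * (z * (w * u * w⁻¹) * z⁻¹)) * z by group, e]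
    group
  have TC : T ≤ Subgroup.centralizer {z} := fun y hy => by
    rw [Subgroup.mem_centralizer_singleton_iff, hz y (Subgroup.le_normalizer hy)]
  have TN : T ≤ Subgroup.normalizer (U : Set X) := fun y hy =>
    Subgroup.mem_normalizer_fintype fun v hv => h.cjU hT hUT hy hv
  set J := Subgroup.centralizer {z} ⊔ Subgroup.normalizer (U : Set X) with hJ
  have BJ : B ≤ J := h.BN.trans le_sup_right
  have wJ : w ∈ J := by
    obtain ⟨u1, h1, h2⟩ := h.br _ hv fun h0 => u1 (h.opp hu h0)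
    convert mul_mem (mul_mem (inv_mem (BJ (h.UB h1))) (Subgroup.mem_sup_left zv))
      (inv_mem (BJ h2)) using 1
    group
  have KJ : K ≤ J := fun g hg => by
    by_cases h0 : g ∈ B
    · exact BJ h0
    obtain ⟨u1, h1, h2⟩ := h.br g hg h0
    convert mul_mem (mul_mem (BJ (h.UB h1)) wJ) (BJ h2) using 1
    group
  have fr : Subgroup.normalizer ((U.subgroupOf K).map K.subtype : Set X) ⊔ K = ⊤ :=
    Sylow.normalizer_sup_eq_top ((h.pg.comap_subtype (K := K)).toSylow h.ix)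
  rw [Subgroup.subgroupOf_map_subtype, inf_of_le_left (h.UB.trans h.BK)] at fr
  rcases hmin _ _ TC TN (top_le_iff.1 (fr ▸ sup_le le_sup_right KJ)) with h1 | h1
  · exact Subgroup.mem_centralizer_singleton_iff.1 (h1 ▸ Subgroup.mem_top x)
  · refine absurd (h.memB h.wK fun v hv => ?_) h.wB
    have := (Subgroup.mem_normalizer_iff.1 (h1 ▸ Subgroup.mem_top w⁻¹) v).1 hv
    simpa using this

end RD

theorem RD.map {Y : Type*} [Group Y] [Finite Y] {U B : Subgroup Y} {t w : Y}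
    (h : RD p ⊤ U B t w) (φ : Y →* X) (hφ : φ.ker ≤ Subgroup.center Y) :
    RD p φ.range (U.map φ) (B.map φ) (φ t) (φ w) := by
  have ZB : φ.ker ≤ B := fun y hy => h.memB trivial fun u hu => by
    rw [mul_assoc, Subgroup.mem_center_iff.1 (hφ hy) u]; simpa using hu
  have mB : ∀ y, φ y ∈ B.map φ ↔ y ∈ B := fun y => by
    rw [← Subgroup.mem_comap, Subgroup.comap_map_eq, sup_of_le_left ZB]
  have U1 : ∀ u ∈ U, φ u = 1 → u = 1 := fun u hu h1 =>
    h.ct u hu (Subgroup.mem_center_iff.1 (hφ h1) t)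
  refine ⟨h.pg.map φ, fun hd => h.ix ?_, Subgroup.map_mono h.UB, Subgroup.map_le_range _ _,
    ⟨w, rfl⟩, ?_, ?_, (mB _).2 h.tB, ⟨_, h.tp, map_pow _ _ _⟩, ?_, fun h0 => h.wB ((mB _).1 h0),
    ?_, ?_, ?_, ?_⟩
  · rw [MonoidHom.range_eq_map, Subgroup.relIndex_map_map, top_sup_eq,
      Subgroup.relIndex_top_right] at hd
    rw [Subgroup.relIndex_top_right]
    exact hd.trans (Subgroup.index_dvd_of_le le_sup_left)
  · rintro _ ⟨b, hb, rfl⟩ _ ⟨u, hu, rfl⟩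
    exact ⟨_, h.nrm b hb u hu, by simp⟩
  · obtain ⟨g, hg, hc⟩ := h.cyc
    refine ⟨φ g, (mB _).2 hg, ?_⟩
    rintro _ ⟨b, hb, rfl⟩
    obtain ⟨k, hk⟩ := hc b hb
    exact ⟨k, _, hk, by simp⟩
  · exact ⟨_, h.wt, by simp⟩
  · rintro _ ⟨g, rfl⟩ h0
    obtain ⟨u, hu, h1⟩ := h.br g trivial fun h1 => h0 ((mB _).2 h1)
    exact ⟨φ u, ⟨u, hu, rfl⟩, _, h1, by simp⟩
  · rintro _ ⟨u, hu, rfl⟩ h0
    rw [h.un u hu ((mB _).1 (by simpa using h0)), map_one]
  · rintro _ ⟨u, hu, rfl⟩ h0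
    have h1 := U1 _ (mul_mem (h.nrm _ h.tB _ hu) (inv_mem hu)) (by simp [h0])
    rw [h.ct u hu (by rw [show t * u = (t * u * t⁻¹ * u⁻¹) * (u * t) by group, h1, one_mul]),
      map_one]
  · obtain ⟨u, hu, u1⟩ := h.ne
    exact ⟨φ u, ⟨u, hu, rfl⟩, fun h0 => u1 (U1 u hu h0)⟩

theorem central {Y : Type*} [Group Y] [Finite Y] {U B : Subgroup Y} {t w : Y}
    (h : RD p ⊤ U B t w) (φ : Y →* X) (hφ : φ.ker ≤ Subgroup.center Y) (hn : φ.range.Normal)
    (T : Sylow p X) {z : X} (hzT : z ∈ T)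
    (hz : ∀ n ∈ Subgroup.normalizer ((T : Subgroup X) : Set X), z * n = n * z)
    (hmin : ∀ H1 H2 : Subgroup X, T ≤ H1 → T ≤ H2 → H1 ⊔ H2 = ⊤ → H1 = ⊤ ∨ H2 = ⊤) (x : X) :
    x * z = z * x := by
  obtain ⟨T', hT'⟩ := (h.pg.map φ).exists_le_sylow
  obtain ⟨y, rfl⟩ := MulAction.exists_smul_eq X T' T
  let ψ : Y →* X := (MulAut.conj y).toMonoidHom.comp φ
  haveI : ψ.range.Normal := by
    rw [MonoidHom.range_comp]
    exact hn.map _ (MulAut.conj y).surjective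
  refine (h.map ψ fun a ha => hφ ?_).core (y • T').isPGroup' ?_ hzT hz hmin x
  · exact (MulAut.conj y).map_eq_one_iff.1 ha
  · rintro _ ⟨u, hu, rfl⟩
    exact Subgroup.smul_mem_pointwise_smul _ (MulAut.conj y) _ (hT' ⟨u, hu, rfl⟩)

end R47
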