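import Cfsg.Agent.Lib.R47.Defs
import Cfsg.Agent.Lib.GL.Basic

set_option autoImplicit false

namespace R47

open Matrix
open scoped MatrixGroups

namespace S2

variable {F : Type} [Field F]

theorem dt (g : SL(2, F)) : g 0 0 * g 1 1 - g 0 1 * g 1 0 = 1 := by
  have := g.2
  rwa [Matrix.det_fin_two] at this

theorem mul_e (g h : SL(2, F)) (i j : Fin 2) : (g * h) i j = g i 0 * h 0 j + g i 1 * h 1 j := by
  simp [Matrix.mul_apply, Fin.sum_univ_two]

theorem inv_e (g : SL(2, F)) : g⁻¹ 0 0 = g 1 1 ∧ g⁻¹ 0 1 = - g 0 1 ∧ g⁻¹ 1 0 = - g 1 0 ∧ g⁻¹ 1 1 = g 0 0 := by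
  simp [Matrix.SpecialLinearGroup.SL2_inv_expl]

/-- upper triangular -/
def BB (F : Type) [Field F] : Subgroup SL(2, F) where
  carrier := {g | g 1 0 = 0}
  one_mem' := by simp
  mul_mem' := fun {a b} (ha : a 1 0 = 0) (hb : b 1 0 = 0) => show (a * b) 1 0 = 0 by rw [mul_e, ha, hb]; ring
  inv_mem' := fun {a} (ha : a 1 0 = 0) => show a⁻¹ 1 0 = 0 by rw [(inv_e a).2.2.1, ha, neg_zero]

/-- unitriangular -/
def UU (F : Type) [Field F] : Subgroup SL(2, F) where
  carrier := {g | g 1 0 = 0 ∧ g 0 0 = 1 ∧ g 1 1 = 1}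
  one_mem' := by simp
  mul_mem' := fun {a b} ⟨a1, a2, a3⟩ ⟨b1, b2, b3⟩ =>
    ⟨by rw [mul_e, a1, b1]; ring, by rw [mul_e, a2, b1, b2]; ring, by rw [mul_e, a1, a3, b3]; ring⟩
  inv_mem' := fun {a} ⟨a1, a2, a3⟩ =>
    ⟨by rw [(inv_e a).2.2.1, a1, neg_zero], by rw [(inv_e a).1, a3], by rw [(inv_e a).2.2.2, a2]⟩

theorem mB {g : SL(2, F)} : g ∈ BB F ↔ g 1 0 = 0 := Iff.rfl
theorem mU {g : SL(2, F)} : g ∈ UU F ↔ g 1 0 = 0 ∧ g 0 0 = 1 ∧ g 1 1 = 1 := Iff.rfl

theorem mU' {g : SL(2, F)} (h : g 1 0 = 0) (k : g 0 0 = 1) : g ∈ UU F :=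
  ⟨h, k, by have := dt g; rw [h, k] at this; linear_combination this⟩

/-- root elements -/
def xx (a : F) : SL(2, F) := ⟨!![1, a; 0, 1], by simp [Matrix.det_fin_two]⟩
/-- diagonal elements -/
def dd (a : Fˣ) : SL(2, F) := ⟨!![(a : F), 0; 0, (a⁻¹ : Fˣ)], by simp [Matrix.det_fin_two]⟩
/-- the Weyl element -/
def ww : SL(2, F) := ⟨!![0, -1; 1, 0], by simp [Matrix.det_fin_two]⟩

theorem xU (a : F) : xx a ∈ UU F := ⟨rfl, rfl, rfl⟩
theorem dB (a : Fˣ) : dd a ∈ BB F := rfl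

theorem eq1 {u : SL(2, F)} (hu : u ∈ UU F) (h : u 0 1 = 0) : u = 1 := by
  ext i j
  fin_cases i <;> fin_cases j
  · exact hu.2.1
  · exact h
  · exact hu.1
  · exact hu.2.2

theorem cardU : Nat.card (UU F) = Nat.card F := by
  refine Nat.card_congr ⟨fun u => u.1 0 1, fun a => ⟨xx a, xU a⟩, fun u => ?_, fun a => rfl⟩
  ext i j
  fin_cases i <;> fin_cases j
  · exact u.2.2.1.symm
  · rfl
  · exact u.2.1.symm
  · exact u.2.2.2.symm

theorem pw {g : SL(2, F)} (h : g ∈ BB F) (k : ℕ) : (g ^ k) 0 0 = g 0 0 ^ k := by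
  induction k with
  | zero => simp
  | succ k ih => rw [pow_succ', mul_e, ih, mB.1 (pow_mem h k), pow_succ']; ring

end S2

open S2

theorem sl2 {F : Type} [Field F] [Fintype F] {p a : ℕ} [Fact p.Prime] (hp : 5 ≤ p) (ha : 1 ≤ a)
    (hF : Fintype.card F = p ^ a) : ∃ (U B : Subgroup (Matrix.SpecialLinearGroup (Fin 2) F))
      (t w : Matrix.SpecialLinearGroup (Fin 2) F), R47.RD p ⊤ U B t w := by
  have pp : p.Prime := Fact.out
  have cF : Nat.card F = p ^ a := by rw [Nat.card_eq_fintype_card, hF]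
  have ch : CharP F p := charP_of_card_eq_prime_pow hF
  have nz : ∀ k : ℕ, 0 < k → k < p → (k : F) ≠ 0 := fun k h1 h2 e =>
    absurd (Nat.le_of_dvd h1 ((CharP.cast_eq_zero_iff F p k).1 e)) (by omega)
  have h2 : (2 : F) ≠ 0 := by exact_mod_cast nz 2 (by omega) (by omega)
  have h3 : (3 : F) ≠ 0 := by exact_mod_cast nz 3 (by omega) (by omega)
  refine ⟨UU F, BB F, dd (Units.mk0 2 h2), ww, IsPGroup.of_card (cardU.trans cF), ?_, fun g h => h.1, le_top,
    trivial, fun b hb u hu => ?_, ?_, dB _, ?_, ?_, ?_, fun g _ hg => ?_, fun u hu h => ?_, fun u hu h => ?_,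
    ⟨xx 1, xU 1, fun e => one_ne_zero (α := F) (congrArg (fun g : SL(2, F) => g 0 1) e)⟩⟩
  · rw [Subgroup.relIndex_top_right]
    have e := (UU F).card_mul_index
    rw [cardU, H10.card_SL_two, mul_assoc, cF] at e
    rw [Nat.eq_of_mul_eq_mul_left (pow_pos pp.pos a) e, pp.dvd_mul]
    have d : p ∣ p ^ a := dvd_pow_self p (by omega)
    have q1 : 1 ≤ p ^ a := pow_pos pp.pos a
    rintro (h | h)
    all_goals
      have : p ∣ 1 := by
        first
        | exact (Nat.dvd_add_right d).1 h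
        | (have := Nat.dvd_sub d h; rwa [Nat.sub_sub_self q1] at this)
      exact pp.one_lt.ne' (Nat.dvd_one.1 this)
  · refine mU' (mul_mem (mul_mem hb hu.1) (inv_mem hb)) ?_
    have := dt b
    rw [mul_e, mul_e, mul_e, (inv_e b).1, (inv_e b).2.2.1, hu.1, hu.2.1, mB.1 hb] at *
    linear_combination this
  · obtain ⟨g, hg⟩ := IsCyclic.exists_monoid_generator (α := Fˣ)
    refine ⟨dd g, dB g, fun b hb => ?_⟩
    have d := dt b
    rw [mB.1 hb, mul_zero, sub_zero] at d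
    obtain ⟨k, hk⟩ := hg (Units.mk0 (b 0 0) (left_ne_zero_of_mul_eq_one d))
    have e : (dd g ^ k) 0 0 = b 0 0 := by
      rw [pw (dB g)]
      exact (Units.val_pow_eq_pow_val g k).symm.trans (congrArg Units.val hk)
    have m := pow_mem (dB g) k
    refine ⟨k, mU' (mul_mem (inv_mem m) hb) ?_⟩
    have d' := dt (dd g ^ k)
    rw [mB.1 m, e] at d'
    rw [mul_e, (inv_e _).1, mB.1 hb]
    linear_combination d'
  · refine mU' (pow_mem (dB _) _) ?_
    rw [pw (dB _)]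
    change (2 : F) ^ (p - 1) = 1
    have e : ((2 : ℕ) : F) ^ p = (2 : ℕ) := by
      have := map_natCast (frobenius F p) 2
      rwa [frobenius_def] at this
    rw [Nat.cast_ofNat] at e
    refine mul_left_cancel₀ h2 ?_
    rw [← pow_succ', Nat.sub_add_cancel pp.pos, e, mul_one]
  · rw [mB, mul_e, mul_e, mul_e, (inv_e _).2.2.1, (inv_e _).2.2.2]
    simp [ww, dd]
  · exact fun e => one_ne_zero (α := F) e
  · have g0 : g 1 0 ≠ 0 := hg
    refine ⟨xx (g 0 0 / g 1 0), xU _, ?_⟩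
    rw [mB, mul_e, (inv_e _).2.2.1, (inv_e _).2.2.2, mul_e, mul_e]
    simp [ww, xx]
    field_simp
    ring
  · refine eq1 hu ?_
    rw [mB, mul_e, mul_e, mul_e, (inv_e _).2.2.1, (inv_e _).2.2.2] at h
    simpa [ww] using h
  · refine eq1 hu ?_
    have e := congrArg (fun g : SL(2, F) => g 0 1) h
    simp only [mul_e, hu.2.1, hu.2.2] at e
    simp [dd] at e
    field_simp at e
    refine (mul_eq_zero.1 (?_ : 3 * u 0 1 = 0)).resolve_left h3
    linear_combination e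

end R47
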