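import Cfsg.Agent.Lib.R47.Defs
import Cfsg.Agent.Lib.MinDeg8.U3Pts

set_option autoImplicit false

namespace R47

open Matrix Cfsg H11.U H8.U3

theorem su3 {F : Type} [Field F] [Fintype F] {p a : ℕ} [Fact p.Prime] (hp : 5 ≤ p) (ha : 1 ≤ a)
    (hF : Fintype.card F = p ^ (2 * a)) :
    ∃ (U B : Subgroup (Cfsg.SU 3 F (p ^ a))) (t w : Cfsg.SU 3 F (p ^ a)), R47.RD p ⊤ U B t w := by
  have pp : p.Prime := Fact.out
  haveI : IsSq F (p ^ a) := ⟨by rw [hF, ← pow_mul, mul_comm]⟩
  haveI : CharP F p := (CharP.charP_iff_prime_eq_zero pp).2 (by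
    have := FiniteField.cast_card_eq_zero F
    rw [hF, Nat.cast_pow] at this
    exact pow_eq_zero_iff (by omega) |>.1 this)
  have h2 : (2 : F) ≠ 0 := fun e => by
    have := Nat.le_of_dvd (by norm_num) ((CharP.cast_eq_zero_iff F p 2).1 (by exact_mod_cast e))
    omega
  have h3 : (3 : F) ≠ 0 := fun e => by
    have := Nat.le_of_dvd (by norm_num) ((CharP.cast_eq_zero_iff F p 3).1 (by exact_mod_cast e))
    omega
  have h4 : (2 : F) ^ (p - 1) = 1 := by
    have := add_pow_char (1 : F) 1 p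
    rw [one_pow, one_add_one_eq_two] at this
    apply mul_right_cancel₀ h2
    rw [← pow_succ, Nat.sub_add_cancel pp.one_le, this, one_mul]
  have pq : p ∣ p ^ a := dvd_pow_self p (by omega)
  generalize hq : p ^ a = q at *
  obtain ⟨e, he⟩ := exists_iso F q
  obtain ⟨m, f, h⟩ := he.exists_fr
  have hf := h.iso_f
  have fe : ∀ c : F, f ≠ c • e := fun c r => by
    have := h.fe
    rw [r, form_smul_left, he.2, mul_zero] at this
    exact zero_ne_one this
  have ef : ∀ c : F, e ≠ c • f := fun c r => by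
    have := h.symm.fe
    rw [r, form_smul_left, hf.2, mul_zero] at this
    exact zero_ne_one this
  obtain ⟨w, s, w1, -⟩ := exists_pair he hf hf he fe ef
  obtain ⟨t, c, t1, t2⟩ := exists_pair he hf (he.smul h2) hf fe fun c => by rw [smul_smul]; exact fe _
  have c2 : cj q (2 : F) = 2 := map_ofNat _ 2
  have hc : c * 2 = 1 := by
    have := form_ac t f e
    rw [t1, t2, form_smul_left, form_smul_right, h.fe, c2] at this
    linear_combination this
  refine ⟨Fx q e, St q e, t, w, IsPGroup.of_card (n := a * 3) (by rw [card_Fx he, pow_mul, hq]), ?_, Fx_le_St e,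
    le_top, trivial, fun b ⟨l, hl⟩ u hu => h.conj_mem_Fx' hl hu, ?_, ⟨2, t1⟩, ?_, ?_, fun ⟨l, hl⟩ => fe l (w1 ▸ hl),
    fun g _ hg => ?_, fun u hu k => ?_, fun u hu k => ?_, ?_⟩
  · rw [Subgroup.relIndex_top_right, index_Fx he, pp.dvd_mul]
    rintro (r | r)
    · exact pp.not_dvd_one ((Nat.dvd_add_right (dvd_pow pq (by norm_num))).1 r)
    · have := two_le_q F q
      have k : 1 ≤ q ^ 2 := Nat.one_le_pow _ _ (by omega)
      exact pp.not_dvd_one ((Nat.dvd_add_right r).1 (by rw [Nat.sub_add_cancel k]; exact dvd_pow pq (by norm_num)))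
  · obtain ⟨g, hg⟩ := IsCyclic.exists_monoid_generator (α := Fˣ)
    obtain ⟨x, hx⟩ := he.exists_ac (he.smul g.ne_zero)
    refine ⟨x, ⟨g, hx⟩, fun b ⟨l, hl⟩ => ?_⟩
    obtain ⟨k, hk⟩ := hg (Units.mk0 l (ne_zero_of_ac he.1 hl))
    refine ⟨k, ?_⟩
    have hk' : (g : F) ^ k = l := by simpa using congrArg Units.val hk
    rw [mem_Fx, ac_mul, hl, ← hk', ← ac_pow hx, ac_inv_ac]
  · rw [mem_Fx, ac_pow t1, h4, one_smul]
  · rw [conj_mem_St, w1]; exact ⟨c, t2⟩
  · obtain ⟨u, l, u1, u2⟩ := exists_pair he hf he (he.ac g) fe fun l r => hg ⟨l, r⟩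
    have l0 : l ≠ 0 := fun r => ac_ne_zero u hf.1 (by rw [u2, r, zero_smul])
    refine ⟨u, u1, l⁻¹, ?_⟩
    have : ac g e = ac (u * w) (l⁻¹ • e) := by
      rw [ac_smul, ac_mul, w1, u2, smul_smul, inv_mul_cancel₀ l0, one_smul]
    rw [ac_mul, this, ac_inv_ac]
  · rw [conj_mem_St, w1] at k
    by_contra n
    obtain ⟨l, hl⟩ := eq_smul_of_fix he hf hu n k
    exact fe l hl
  · have x0 : xx q m f u = 0 := by
      have := h.xx_conj t1 hu
      rw [k, mul_inv_cancel_right, c2] at this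
      field_simp at this
      linear_combination -this
    have r := congrArg (fun g => ac g f) k
    simp only [ac_mul] at r
    rw [t2, ac_smul, h.Q_f hu, x0, zero_smul, add_zero, ac_add, ac_smul, t1, t2] at r
    have r' : (cc q f u * 2) • e + (0 : F) • m + c • f = (c * cc q f u) • e + (0 : F) • m + c • f := by
      rw [zero_smul, add_zero, add_zero, mul_smul, r, smul_add, mul_smul]
    have r1 := (h.comb_inj r').1
    have c0 : cc q f u = 0 := (mul_eq_zero.1 (show 3 * cc q f u = 0 by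
      linear_combination 2 * r1 + cc q f u * hc)).resolve_left h3
    exact h.Q_ext hu (one_mem _) (by rw [x0, h.xx_one]) (by rw [c0, h.cc_one])
  · obtain ⟨d, d0, hd⟩ := exists_trace_zero F q
    exact ⟨tv q e d, tv_mem_Fx d he.2, fun r => d0 ((tv_eq_one_iff he hd).1 r)⟩

end R47
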